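import Mathlib

/-!
# Products of two conjugates in `SL₃`: normal forms
-/

set_option autoImplicit false

namespace Cfsg.Agent.Lib.Helper37.P3

open Matrix

variable {F : Type*} [Field F]

/-- `A` is a product of two `GL₃`-conjugates of `X` -/
def Good (X A : Matrix (Fin 3) (Fin 3) F) : Prop :=
  ∃ U Ui V Vi : Matrix (Fin 3) (Fin 3) F, U * Ui = 1 ∧ V * Vi = 1 ∧ A = U * X * Ui * (V * X * Vi)

theorem Good.conj {X M P Pi : Matrix (Fin 3) (Fin 3) F} (h : Good X M) (hP : P * Pi = 1) :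
    Good X (P * M * Pi) := by
  obtain ⟨U, Ui, V, Vi, hU, hV, rfl⟩ := h
  have hP' : Pi * P = 1 := _root_.mul_eq_one_comm.1 hP
  refine ⟨P * U, Ui * Pi, P * V, Vi * Pi, ?_, ?_, ?_⟩
  · calc P * U * (Ui * Pi) = P * (U * Ui) * Pi := by simp only [Matrix.mul_assoc]
      _ = 1 := by rw [hU, Matrix.mul_one, hP]
  · calc P * V * (Vi * Pi) = P * (V * Vi) * Pi := by simp only [Matrix.mul_assoc]
      _ = 1 := by rw [hV, Matrix.mul_one, hP]
  · calc P * (U * X * Ui * (V * X * Vi)) * Pi = P * U * X * Ui * 1 * (V * X * Vi) * Pi := by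
          simp only [Matrix.mul_assoc, Matrix.one_mul]
      _ = P * U * X * (Ui * Pi) * (P * V * X * (Vi * Pi)) := by
          rw [← hP']; simp only [Matrix.mul_assoc]

/-- `diag(c,1,1)` -/
def dg (c : F) : Matrix (Fin 3) (Fin 3) F := !![c, 0, 0; 0, 1, 0; 0, 0, 1]

theorem det_dg (c : F) : (dg c).det = c := by
  simp [dg, Matrix.det_fin_three]

theorem conj_toSL {X : SpecialLinearGroup (Fin 3) F} (hX : ∀ c : F, dg c * X.1 = X.1 * dg c)
    {U Ui : Matrix (Fin 3) (Fin 3) F} (hU : U * Ui = 1) :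
    ∃ (Y U' : SpecialLinearGroup (Fin 3) F), Y.1 = U * X.1 * Ui ∧ Y = U' * X * U'⁻¹ := by
  have hU' : Ui * U = 1 := _root_.mul_eq_one_comm.1 hU
  have hdet : U.det * Ui.det = 1 := by rw [← Matrix.det_mul, hU, Matrix.det_one]
  have hd0 : U.det ≠ 0 := left_ne_zero_of_mul_eq_one hdet
  have hY : (U * X.1 * Ui).det = 1 := by
    rw [Matrix.det_mul, Matrix.det_mul, X.2, mul_one, hdet]
  have hW : (U * dg (U.det)⁻¹).det = 1 := by
    rw [Matrix.det_mul, det_dg, mul_inv_cancel₀ hd0]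
  let Y : SpecialLinearGroup (Fin 3) F := ⟨_, hY⟩
  let W : SpecialLinearGroup (Fin 3) F := ⟨_, hW⟩
  refine ⟨Y, W, rfl, ?_⟩
  rw [eq_mul_inv_iff_mul_eq]
  apply Subtype.ext
  show U * X.1 * Ui * (U * dg (U.det)⁻¹) = U * dg (U.det)⁻¹ * X.1
  calc U * X.1 * Ui * (U * dg (U.det)⁻¹) = U * X.1 * (Ui * U) * dg (U.det)⁻¹ := by
        simp only [Matrix.mul_assoc]
    _ = U * (X.1 * dg (U.det)⁻¹) := by rw [hU', Matrix.mul_one, Matrix.mul_assoc]
    _ = U * dg (U.det)⁻¹ * X.1 := by rw [← hX, Matrix.mul_assoc]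

theorem Good.toSL {X A : SpecialLinearGroup (Fin 3) F} (hX : ∀ c : F, dg c * X.1 = X.1 * dg c)
    (h : Good X.1 A.1) : ∃ U V : SpecialLinearGroup (Fin 3) F, A = (U * X * U⁻¹) * (V * X * V⁻¹) := by
  obtain ⟨U, Ui, V, Vi, hU, hV, hA⟩ := h
  obtain ⟨Y, U', hY, hY'⟩ := conj_toSL hX hU
  obtain ⟨Z, V', hZ, hZ'⟩ := conj_toSL hX hV
  refine ⟨U', V', ?_⟩
  rw [← hY', ← hZ']
  apply Subtype.ext
  show A.1 = Y.1 * Z.1
  rw [hA, hY, hZ]

/-- matrix with given columns -/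
def colM (u v w : Fin 3 → F) : Matrix (Fin 3) (Fin 3) F := Matrix.of fun i j => ![u i, v i, w i] j

theorem mul_colM (A : Matrix (Fin 3) (Fin 3) F) (u v w : Fin 3 → F) :
    A * colM u v w = colM (A *ᵥ u) (A *ᵥ v) (A *ᵥ w) := by
  ext i j
  fin_cases j <;> simp [colM, Matrix.mul_apply, Matrix.mulVec, dotProduct]

/-- a non scalar matrix has a vector which is not an eigenvector -/
theorem exists_basis {A : Matrix (Fin 3) (Fin 3) F} (hA : ¬ ∃ c : F, A = c • (1 : Matrix (Fin 3) (Fin 3) F)) :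
    ∃ e z : Fin 3 → F, (colM e (A *ᵥ e) z).det ≠ 0 := by
  by_contra hcon
  push Not at hcon
  apply hA
  have h1 := hcon ![1, 0, 0] ![0, 1, 0]
  have h2 := hcon ![1, 0, 0] ![0, 0, 1]
  have h3 := hcon ![0, 1, 0] ![1, 0, 0]
  have h4 := hcon ![0, 1, 0] ![0, 0, 1]
  have h5 := hcon ![0, 0, 1] ![1, 0, 0]
  have h6 := hcon ![0, 0, 1] ![0, 1, 0]
  have h7 := hcon ![1, 1, 0] ![0, 0, 1]
  have h8 := hcon ![1, 0, 1] ![0, 1, 0]
  simp [colM, Matrix.det_fin_three, Matrix.mulVec, dotProduct, Fin.sum_univ_three] at h1 h2 h3 h4 h5 h6 h7 h8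
  refine ⟨A 0 0, ?_⟩
  ext i j
  fin_cases i <;> fin_cases j <;> simp
  all_goals first | assumption | skip
  · linear_combination h7 - h2 + h4
  · linear_combination -h8 - h1 + h6

end Cfsg.Agent.Lib.Helper37.P3
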