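import Cfsg.Agent.Lib.Helper37.PSL3.P3A

/-!
# Products of two conjugates in `SL₃`: the normal form
-/

set_option autoImplicit false

namespace Cfsg.Agent.Lib.Helper37.P3

open Matrix

variable {F : Type*} [Field F]

/-- the normal form -/
def App (a2 a3 g1 g3 : F) : Matrix (Fin 3) (Fin 3) F :=
  !![0, (g1 * a3 - 1) / g3, g1; 1, a2, 1; 0, a3, g3]

theorem eq_App {N : Matrix (Fin 3) (Fin 3) F} (h00 : N 0 0 = 0) (h10 : N 1 0 = 1) (h20 : N 2 0 = 0)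
    (h12 : N 1 2 = 1) (h22 : N 2 2 ≠ 0) (hdet : N.det = 1) :
    N = App (N 1 1) (N 2 1) (N 0 2) (N 2 2) := by
  rw [Matrix.det_fin_three, h00, h10, h20, h12] at hdet
  have h01 : N 0 1 = (N 0 2 * N 2 1 - 1) / N 2 2 := by
    rw [eq_div_iff h22]
    linear_combination -hdet
  ext i j
  fin_cases i <;> fin_cases j <;> simp [App, h00, h10, h20, h12, h01]

/-- first step: first column `(0,1,0)` -/
theorem first_col {A : Matrix (Fin 3) (Fin 3) F}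
    (hA : ¬ ∃ c : F, A = c • (1 : Matrix (Fin 3) (Fin 3) F)) :
    ∃ P Pi N : Matrix (Fin 3) (Fin 3) F, P * Pi = 1 ∧ A = P * N * Pi ∧
      N 0 0 = 0 ∧ N 1 0 = 1 ∧ N 2 0 = 0 := by
  obtain ⟨e, z, hdet⟩ := exists_basis hA
  set P := colM e (A *ᵥ e) z with hP
  have hu : IsUnit P.det := isUnit_iff_ne_zero.2 hdet
  have h1 : P * P⁻¹ = 1 := Matrix.mul_nonsing_inv _ hu
  have h2 : P⁻¹ * P = 1 := Matrix.nonsing_inv_mul _ hu
  have h3 : colM (P⁻¹ *ᵥ e) (P⁻¹ *ᵥ (A *ᵥ e)) (P⁻¹ *ᵥ z) = 1 := by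
    rw [← mul_colM, ← hP, h2]
  have h4 : P⁻¹ * A * P = colM (P⁻¹ *ᵥ (A *ᵥ e)) (P⁻¹ *ᵥ (A *ᵥ (A *ᵥ e))) (P⁻¹ *ᵥ (A *ᵥ z)) := by
    rw [Matrix.mul_assoc, hP, mul_colM, mul_colM]
  have h5 : ∀ i, (P⁻¹ * A * P) i 0 = (1 : Matrix (Fin 3) (Fin 3) F) i 1 := by
    intro i
    rw [h4, ← h3]
    simp [colM]
  refine ⟨P, P⁻¹, P⁻¹ * A * P, h1, ?_, ?_, ?_, ?_⟩
  · calc A = (P * P⁻¹) * A * (P * P⁻¹) := by rw [h1, Matrix.one_mul, Matrix.mul_one]
      _ = _ := by simp only [Matrix.mul_assoc]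
  · rw [h5]; simp
  · rw [h5]; simp
  · rw [h5]; simp

/-- second step -/
theorem second_step {N : Matrix (Fin 3) (Fin 3) F} (h00 : N 0 0 = 0) (h10 : N 1 0 = 1)
    (h20 : N 2 0 = 0) (hdet : N.det = 1) :
    ∃ (P Pi : Matrix (Fin 3) (Fin 3) F) (a2 a3 g1 g3 : F), P * Pi = 1 ∧ g3 ≠ 0 ∧
      N = P * App a2 a3 g1 g3 * Pi := by
  have hdet' := hdet
  rw [Matrix.det_fin_three, h00, h10, h20] at hdet'
  obtain ⟨f2, hf2⟩ : ∃ f2 : F, f2 * N 2 1 + N 2 2 ≠ 0 := by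
    by_cases h : N 2 2 = 0
    · refine ⟨1, ?_⟩
      rw [h, add_zero, one_mul]
      intro h'
      rw [h, h'] at hdet'
      simp at hdet'
    · exact ⟨0, by simpa using h⟩
  set f1 : F := 1 - f2 * N 1 1 - N 1 2 + f2 * (f2 * N 2 1 + N 2 2) with hf1
  set E : Matrix (Fin 3) (Fin 3) F := !![1, 0, f1; 0, 1, f2; 0, 0, 1] with hE
  set Ei : Matrix (Fin 3) (Fin 3) F := !![1, 0, -f1; 0, 1, -f2; 0, 0, 1] with hEi
  have h1 : E * Ei = 1 := by
    ext i j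
    fin_cases i <;> fin_cases j <;> simp [hE, hEi, Matrix.mul_apply, Fin.sum_univ_three]
  have h2 : Ei * E = 1 := _root_.mul_eq_one_comm.1 h1
  have hd : (Ei * N * E).det = 1 := by
    rw [Matrix.det_mul, Matrix.det_mul, hdet, mul_one, ← Matrix.det_mul, h2, Matrix.det_one]
  have e00 : (Ei * N * E) 0 0 = 0 := by
    simp [hE, hEi, Matrix.mul_apply, Fin.sum_univ_three, Matrix.vecMul, dotProduct, h00, h10, h20]
  have e10 : (Ei * N * E) 1 0 = 1 := by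
    simp [hE, hEi, Matrix.mul_apply, Fin.sum_univ_three, Matrix.vecMul, dotProduct, h00, h10, h20]
  have e20 : (Ei * N * E) 2 0 = 0 := by
    simp [hE, hEi, Matrix.mul_apply, Fin.sum_univ_three, Matrix.vecMul, dotProduct, h00, h10, h20]
  have e12 : (Ei * N * E) 1 2 = 1 := by
    simp [hE, hEi, Matrix.mul_apply, Fin.sum_univ_three, Matrix.vecMul, dotProduct, h00, h10, h20]
    rw [hf1]; ring
  have e22 : (Ei * N * E) 2 2 ≠ 0 := by
    have : (Ei * N * E) 2 2 = f2 * N 2 1 + N 2 2 := by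
      simp [hE, hEi, Matrix.mul_apply, Fin.sum_univ_three, Matrix.vecMul, dotProduct, h00, h10, h20]
      ring
    rw [this]; exact hf2
  refine ⟨E, Ei, (Ei * N * E) 1 1, (Ei * N * E) 2 1, (Ei * N * E) 0 2, (Ei * N * E) 2 2, h1, e22, ?_⟩
  rw [← eq_App e00 e10 e20 e12 e22 hd]
  calc N = (E * Ei) * N * (E * Ei) := by rw [h1, Matrix.one_mul, Matrix.mul_one]
    _ = _ := by simp only [Matrix.mul_assoc]

theorem Good.of_App {X : Matrix (Fin 3) (Fin 3) F}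
    (h : ∀ a2 a3 g1 g3 : F, g3 ≠ 0 → Good X (App a2 a3 g1 g3))
    {A : Matrix (Fin 3) (Fin 3) F} (hdet : A.det = 1)
    (hA : ¬ ∃ c : F, A = c • (1 : Matrix (Fin 3) (Fin 3) F)) : Good X A := by
  obtain ⟨P, Pi, N, hP, hAN, h00, h10, h20⟩ := first_col hA
  have hP' : Pi * P = 1 := _root_.mul_eq_one_comm.1 hP
  have hN : N.det = 1 := by
    have : A.det = N.det := by
      rw [hAN, Matrix.det_mul, Matrix.det_mul, mul_comm, ← mul_assoc, ← Matrix.det_mul, hP',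
        Matrix.det_one, one_mul]
    rw [← this, hdet]
  obtain ⟨Q, Qi, a2, a3, g1, g3, hQ, hg, hNQ⟩ := second_step h00 h10 h20 hN
  rw [hAN, hNQ]
  exact ((h a2 a3 g1 g3 hg).conj hQ).conj hP

end Cfsg.Agent.Lib.Helper37.P3
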