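import Cfsg.Agent.Lib.Helper37.PSL3.P3B

/-!
# Products of two conjugates in `SL₃`: the case `q ≥ 4`
-/

set_option autoImplicit false

namespace Cfsg.Agent.Lib.Helper37.P3

open Matrix

variable {F : Type*} [Field F]

/-- `diag(a,1,a⁻¹)` -/
def Dm (a : F) : Matrix (Fin 3) (Fin 3) F := !![a, 0, 0; 0, 1, 0; 0, 0, a⁻¹]

theorem lower_conj {a : F} (ha0 : a ≠ 0) (ha1 : a ≠ 1) (ha2 : a ≠ -1) (x y z : F) :
    ∃ R Ri : Matrix (Fin 3) (Fin 3) F, R * Ri = 1 ∧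
      !![a, 0, 0; x, 1, 0; y, z, a⁻¹] = R * Dm a * Ri := by
  have h1 : a - 1 ≠ 0 := sub_ne_zero.2 ha1
  have h2 : a + 1 ≠ 0 := fun h => ha2 (eq_neg_of_add_eq_zero_left h)
  set r1 : F := x / (a - 1) with hr1
  set r3 : F := z * a / (a - 1) with hr3
  set r2 : F := (y + z * r1) * a / ((a - 1) * (a + 1)) with hr2
  refine ⟨!![1, 0, 0; r1, 1, 0; r2, r3, 1], !![1, 0, 0; -r1, 1, 0; r1 * r3 - r2, -r3, 1], ?_, ?_⟩
  · ext i j
    fin_cases i <;> fin_cases j <;> simp [Matrix.mul_apply, Fin.sum_univ_three] <;> ring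
  · ext i j
    fin_cases i <;> fin_cases j <;> simp [Dm, Matrix.mul_apply, Fin.sum_univ_three] <;>
      (try rw [hr2]) <;> (try rw [hr1]) <;> (try rw [hr3]) <;> field_simp <;> ring

theorem upper_conj {a : F} (ha0 : a ≠ 0) (ha1 : a ≠ 1) (ha2 : a ≠ -1) (x y z : F) :
    ∃ R Ri : Matrix (Fin 3) (Fin 3) F, R * Ri = 1 ∧
      !![a⁻¹, x, y; 0, 1, z; 0, 0, a] = R * Dm a * Ri := by
  have h1 : a - 1 ≠ 0 := sub_ne_zero.2 ha1
  have h2 : a + 1 ≠ 0 := fun h => ha2 (eq_neg_of_add_eq_zero_left h)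
  set s1 : F := x * a / (a - 1) with hs1
  set s3 : F := z / (a - 1) with hs3
  set s2 : F := (x * s3 + y) * a / ((a - 1) * (a + 1)) with hs2
  refine ⟨!![s2, s1, 1; s3, 1, 0; 1, 0, 0], !![0, 0, 1; 0, 1, -s3; 1, -s1, s1 * s3 - s2], ?_, ?_⟩
  · ext i j
    fin_cases i <;> fin_cases j <;> simp [Matrix.mul_apply, Fin.sum_univ_three] <;> ring
  · ext i j
    fin_cases i <;> fin_cases j <;> simp [Dm, Matrix.mul_apply, Fin.sum_univ_three] <;>
      (try rw [hs2]) <;> (try rw [hs1]) <;> (try rw [hs3]) <;> field_simp <;> ring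

theorem good_of_LU {a : F} (ha0 : a ≠ 0) (ha1 : a ≠ 1) (ha2 : a ≠ -1)
    {M : Matrix (Fin 3) (Fin 3) F} (h00 : M 0 0 = 1) (h11 : M 1 1 - M 0 1 * M 1 0 = 1)
    (hdet : M.det = 1) : Good (Dm a) M := by
  obtain ⟨R, Ri, hR, hB⟩ := lower_conj ha0 ha1 ha2 (M 1 0 * a) (M 2 0 * a) (M 2 1 - M 2 0 * M 0 1)
  obtain ⟨S, Si, hS, hC⟩ := upper_conj ha0 ha1 ha2 (a⁻¹ * M 0 1) (a⁻¹ * M 0 2)
    (M 1 2 - M 1 0 * M 0 2)
  refine ⟨R, Ri, S, Si, hR, hS, ?_⟩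
  rw [← hB, ← hC]
  rw [Matrix.det_fin_three, h00] at hdet
  have haa : a * a⁻¹ = 1 := mul_inv_cancel₀ ha0
  ext i j
  fin_cases i <;> fin_cases j <;> simp [Matrix.mul_apply, Fin.sum_univ_three, ha0, h00]
  · linear_combination h11 - M 1 0 * M 0 1 * haa
  · linear_combination - M 1 0 * M 0 2 * haa
  · linear_combination - M 2 0 * M 0 1 * haa
  · linear_combination hdet - (M 2 2 - M 0 2 * M 2 0) * h11 - M 2 0 * M 0 2 * haa

theorem det_App (a2 a3 g1 : F) {g3 : F} (hg : g3 ≠ 0) : (App a2 a3 g1 g3).det = 1 := by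
  simp [App, Matrix.det_fin_three]
  field_simp
  ring

theorem good_App {a : F} (ha0 : a ≠ 0) (ha1 : a ≠ 1) (ha2 : a ≠ -1) (a2 a3 g1 : F) {g3 : F}
    (hg : g3 ≠ 0) : Good (Dm a) (App a2 a3 g1 g3) := by
  set p : F := 1 - g3 with hp
  set t : F := -(g1 + 1) / g3 with ht
  set P : Matrix (Fin 3) (Fin 3) F := !![1, 1 - t * p, g1; 0, -1, 1; 0, p, g3] with hP
  set Pi : Matrix (Fin 3) (Fin 3) F := !![1, 1, t; 0, -g3, 1; 0, p, 1] with hPi
  have h1 : P * Pi = 1 := by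
    ext i j
    fin_cases i <;> fin_cases j <;> simp [hP, hPi, Matrix.mul_apply, Fin.sum_univ_three] <;>
      (try rw [ht]) <;> (try rw [hp]) <;> (try field_simp) <;> ring
  have h2 : Pi * P = 1 := _root_.mul_eq_one_comm.1 h1
  have hd : (Pi * App a2 a3 g1 g3 * P).det = 1 := by
    rw [Matrix.det_mul, Matrix.det_mul, det_App _ _ _ hg, mul_one, ← Matrix.det_mul, h2,
      Matrix.det_one]
  have e00 : (Pi * App a2 a3 g1 g3 * P) 0 0 = 1 := by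
    simp [hP, hPi, App, Matrix.mul_apply, Fin.sum_univ_three, Matrix.vecMul, dotProduct]
  have e11 : (Pi * App a2 a3 g1 g3 * P) 1 1 -
      (Pi * App a2 a3 g1 g3 * P) 0 1 * (Pi * App a2 a3 g1 g3 * P) 1 0 = 1 := by
    simp [hP, hPi, App, Matrix.mul_apply, Fin.sum_univ_three, Matrix.vecMul, dotProduct]
    rw [ht, hp]
    field_simp
    ring
  have := (good_of_LU ha0 ha1 ha2 e00 e11 hd).conj h1
  have h3 : P * (Pi * App a2 a3 g1 g3 * P) * Pi = App a2 a3 g1 g3 := by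
    calc P * (Pi * App a2 a3 g1 g3 * P) * Pi = (P * Pi) * App a2 a3 g1 g3 * (P * Pi) := by
          simp only [Matrix.mul_assoc]
      _ = _ := by rw [h1, Matrix.one_mul, Matrix.mul_one]
  rwa [h3] at this

end Cfsg.Agent.Lib.Helper37.P3
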