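import Cfsg.Agent.Lib.Helper37.PSL3.P3C

/-!
# Products of two conjugates in `SL₃(3)`
-/

set_option autoImplicit false

namespace Cfsg.Agent.Lib.Helper37.P3

open Matrix

/-- an element of order four -/
def X4 (F : Type*) [Field F] : Matrix (Fin 3) (Fin 3) F := !![1, 0, 0; 0, 0, -1; 0, 1, 0]

/-- witness table -/
def tbU : Fin 3 → Fin 3 → Fin 3 → Fin 3 → Matrix (Fin 3) (Fin 3) (ZMod 3) :=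
  ![![![![1, !![0, 0, 1; 0, 1, 1; 2, 0, 0], !![0, 0, 1; 0, 1, 0; 2, 0, 1]],
      ![1, !![0, 0, 1; 0, 1, 1; 2, 0, 0], !![0, 0, 1; 0, 1, 0; 2, 2, 2]],
      ![1, !![0, 0, 1; 0, 1, 1; 2, 0, 0], !![0, 0, 1; 0, 1, 0; 2, 2, 2]]],
     ![![1, !![0, 0, 1; 0, 1, 1; 2, 2, 1], !![0, 0, 1; 0, 1, 0; 2, 0, 1]],
      ![1, !![0, 0, 1; 0, 1, 0; 2, 1, 1], !![0, 0, 1; 0, 1, 0; 2, 2, 0]],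
      ![1, !![0, 0, 1; 0, 1, 0; 2, 0, 1], !![0, 0, 1; 0, 1, 1; 2, 2, 1]]],
     ![![1, !![0, 0, 1; 0, 1, 1; 2, 1, 2], !![0, 0, 1; 0, 1, 0; 2, 0, 1]],
      ![1, !![0, 0, 1; 0, 1, 0; 2, 1, 0], !![0, 0, 1; 0, 1, 1; 2, 1, 2]],
      ![1, !![0, 0, 1; 0, 1, 0; 2, 1, 1], !![0, 0, 1; 0, 1, 0; 2, 0, 2]]]],
    ![![![1, !![0, 0, 1; 0, 1, 1; 2, 0, 2], !![0, 0, 1; 0, 1, 0; 2, 0, 1]],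
      ![1, !![0, 0, 1; 0, 1, 0; 2, 2, 2], !![0, 0, 1; 0, 1, 0; 2, 0, 2]],
      ![1, !![0, 0, 1; 0, 1, 0; 2, 2, 0], !![0, 0, 1; 0, 1, 1; 2, 1, 1]]],
     ![![1, !![0, 0, 1; 0, 1, 1; 2, 2, 0], !![0, 0, 1; 0, 1, 0; 2, 0, 1]],
      ![1, !![0, 0, 1; 0, 1, 1; 2, 2, 0], !![0, 0, 1; 0, 1, 1; 2, 0, 2]],
      ![1, !![0, 0, 1; 0, 1, 1; 2, 2, 0], !![0, 0, 1; 0, 1, 0; 2, 1, 1]]],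
     ![![1, !![0, 0, 1; 0, 1, 1; 2, 1, 1], !![0, 0, 1; 0, 1, 0; 2, 0, 1]],
      ![1, !![0, 0, 1; 0, 1, 0; 2, 2, 0], !![0, 0, 1; 0, 1, 0; 2, 0, 1]],
      ![1, !![0, 0, 1; 0, 1, 0; 2, 1, 0], !![0, 0, 1; 0, 1, 0; 2, 0, 1]]]],
    ![![![1, !![0, 0, 1; 0, 1, 1; 2, 0, 1], !![0, 0, 1; 0, 1, 0; 2, 0, 1]],
      ![1, !![0, 0, 1; 0, 1, 0; 2, 0, 2], !![0, 0, 1; 0, 1, 1; 2, 2, 2]],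
      ![1, !![0, 0, 1; 0, 1, 0; 2, 2, 2], !![0, 0, 1; 0, 1, 0; 2, 2, 0]]],
     ![![1, !![0, 0, 1; 0, 1, 1; 2, 2, 2], !![0, 0, 1; 0, 1, 0; 2, 0, 1]],
      ![1, !![0, 0, 1; 0, 1, 0; 2, 0, 1], !![0, 0, 1; 0, 1, 0; 2, 1, 0]],
      ![1, !![0, 0, 1; 0, 1, 0; 2, 0, 2], !![0, 0, 1; 0, 1, 0; 2, 1, 0]]],
     ![![1, !![0, 0, 1; 0, 1, 1; 2, 1, 0], !![0, 0, 1; 0, 1, 0; 2, 0, 1]],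
      ![1, !![0, 0, 1; 0, 1, 1; 2, 1, 0], !![0, 0, 1; 0, 1, 0; 2, 1, 1]],
      ![1, !![0, 0, 1; 0, 1, 1; 2, 1, 0], !![0, 0, 1; 0, 1, 1; 2, 0, 1]]]]]

/-- witness table -/
def tbUi : Fin 3 → Fin 3 → Fin 3 → Fin 3 → Matrix (Fin 3) (Fin 3) (ZMod 3) :=
  ![![![![1, !![0, 0, 2; 2, 1, 0; 1, 0, 0], !![1, 0, 2; 0, 1, 0; 1, 0, 0]],
      ![1, !![0, 0, 2; 2, 1, 0; 1, 0, 0], !![2, 2, 2; 0, 1, 0; 1, 0, 0]],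
      ![1, !![0, 0, 2; 2, 1, 0; 1, 0, 0], !![2, 2, 2; 0, 1, 0; 1, 0, 0]]],
     ![![1, !![2, 2, 2; 2, 1, 0; 1, 0, 0], !![1, 0, 2; 0, 1, 0; 1, 0, 0]],
      ![1, !![1, 1, 2; 0, 1, 0; 1, 0, 0], !![0, 2, 2; 0, 1, 0; 1, 0, 0]],
      ![1, !![1, 0, 2; 0, 1, 0; 1, 0, 0], !![2, 2, 2; 2, 1, 0; 1, 0, 0]]],
     ![![1, !![1, 1, 2; 2, 1, 0; 1, 0, 0], !![1, 0, 2; 0, 1, 0; 1, 0, 0]],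
      ![1, !![0, 1, 2; 0, 1, 0; 1, 0, 0], !![1, 1, 2; 2, 1, 0; 1, 0, 0]],
      ![1, !![1, 1, 2; 0, 1, 0; 1, 0, 0], !![2, 0, 2; 0, 1, 0; 1, 0, 0]]]],
    ![![![1, !![2, 0, 2; 2, 1, 0; 1, 0, 0], !![1, 0, 2; 0, 1, 0; 1, 0, 0]],
      ![1, !![2, 2, 2; 0, 1, 0; 1, 0, 0], !![2, 0, 2; 0, 1, 0; 1, 0, 0]],
      ![1, !![0, 2, 2; 0, 1, 0; 1, 0, 0], !![0, 1, 2; 2, 1, 0; 1, 0, 0]]],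
     ![![1, !![1, 2, 2; 2, 1, 0; 1, 0, 0], !![1, 0, 2; 0, 1, 0; 1, 0, 0]],
      ![1, !![1, 2, 2; 2, 1, 0; 1, 0, 0], !![2, 0, 2; 2, 1, 0; 1, 0, 0]],
      ![1, !![1, 2, 2; 2, 1, 0; 1, 0, 0], !![1, 1, 2; 0, 1, 0; 1, 0, 0]]],
     ![![1, !![0, 1, 2; 2, 1, 0; 1, 0, 0], !![1, 0, 2; 0, 1, 0; 1, 0, 0]],
      ![1, !![0, 2, 2; 0, 1, 0; 1, 0, 0], !![1, 0, 2; 0, 1, 0; 1, 0, 0]],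
      ![1, !![0, 1, 2; 0, 1, 0; 1, 0, 0], !![1, 0, 2; 0, 1, 0; 1, 0, 0]]]],
    ![![![1, !![1, 0, 2; 2, 1, 0; 1, 0, 0], !![1, 0, 2; 0, 1, 0; 1, 0, 0]],
      ![1, !![2, 0, 2; 0, 1, 0; 1, 0, 0], !![0, 2, 2; 2, 1, 0; 1, 0, 0]],
      ![1, !![2, 2, 2; 0, 1, 0; 1, 0, 0], !![0, 2, 2; 0, 1, 0; 1, 0, 0]]],
     ![![1, !![0, 2, 2; 2, 1, 0; 1, 0, 0], !![1, 0, 2; 0, 1, 0; 1, 0, 0]],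
      ![1, !![1, 0, 2; 0, 1, 0; 1, 0, 0], !![0, 1, 2; 0, 1, 0; 1, 0, 0]],
      ![1, !![2, 0, 2; 0, 1, 0; 1, 0, 0], !![0, 1, 2; 0, 1, 0; 1, 0, 0]]],
     ![![1, !![2, 1, 2; 2, 1, 0; 1, 0, 0], !![1, 0, 2; 0, 1, 0; 1, 0, 0]],
      ![1, !![2, 1, 2; 2, 1, 0; 1, 0, 0], !![1, 1, 2; 0, 1, 0; 1, 0, 0]],
      ![1, !![2, 1, 2; 2, 1, 0; 1, 0, 0], !![1, 0, 2; 2, 1, 0; 1, 0, 0]]]]]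

/-- witness table -/
def tbV : Fin 3 → Fin 3 → Fin 3 → Fin 3 → Matrix (Fin 3) (Fin 3) (ZMod 3) :=
  ![![![![1, !![1, 1, 1; 2, 1, 0; 2, 0, 0], !![1, 0, 1; 2, 0, 0; 1, 2, 2]],
      ![1, !![1, 0, 1; 1, 2, 2; 1, 0, 0], !![0, 0, 1; 2, 1, 0; 0, 2, 2]],
      ![1, !![0, 0, 1; 1, 2, 2; 1, 0, 0], !![0, 0, 1; 2, 2, 0; 0, 2, 2]]],
     ![![1, !![1, 1, 1; 2, 1, 0; 2, 0, 0], !![0, 0, 1; 2, 0, 0; 0, 2, 2]],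
      ![1, !![1, 1, 1; 1, 0, 1; 1, 1, 0], !![1, 1, 1; 1, 0, 1; 1, 1, 0]],
      ![1, !![0, 0, 1; 2, 2, 0; 0, 2, 2], !![0, 0, 1; 1, 2, 2; 1, 0, 0]]],
     ![![1, !![1, 1, 1; 2, 1, 0; 2, 0, 0], !![1, 1, 1; 1, 0, 0; 1, 1, 0]],
      ![1, !![0, 0, 1; 2, 1, 0; 0, 2, 2], !![1, 0, 1; 1, 2, 2; 1, 0, 0]],
      ![1, !![1, 0, 1; 2, 2, 1; 1, 2, 2], !![1, 0, 1; 2, 2, 1; 1, 2, 2]]]],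
    ![![![1, !![1, 1, 1; 2, 1, 0; 0, 2, 0], !![1, 1, 1; 1, 0, 0; 0, 1, 0]],
      ![1, !![0, 0, 1; 2, 1, 0; 1, 1, 2], !![1, 1, 1; 1, 0, 1; 0, 1, 2]],
      ![1, !![1, 0, 1; 2, 2, 1; 2, 0, 1], !![0, 0, 1; 1, 2, 2; 0, 1, 1]]],
     ![![1, !![1, 1, 1; 2, 1, 0; 0, 2, 0], !![1, 0, 1; 2, 0, 0; 2, 2, 2]],
      ![1, !![1, 0, 1; 1, 2, 2; 0, 1, 1], !![1, 0, 1; 1, 2, 2; 0, 1, 1]],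
      ![1, !![0, 0, 1; 1, 2, 2; 0, 1, 1], !![1, 0, 1; 2, 2, 1; 2, 0, 1]]],
     ![![1, !![1, 1, 1; 2, 1, 0; 0, 2, 0], !![0, 0, 1; 2, 0, 0; 1, 2, 2]],
      ![1, !![1, 1, 1; 1, 0, 1; 0, 1, 2], !![0, 0, 1; 2, 1, 0; 1, 1, 2]],
      ![1, !![0, 0, 1; 2, 2, 0; 1, 0, 2], !![0, 0, 1; 2, 2, 0; 1, 0, 2]]]],
    ![![![1, !![1, 1, 1; 2, 1, 0; 1, 1, 0], !![0, 0, 1; 2, 0, 0; 2, 2, 2]],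
      ![1, !![1, 1, 1; 1, 0, 1; 2, 1, 1], !![1, 0, 1; 1, 2, 2; 2, 2, 2]],
      ![1, !![0, 0, 1; 2, 2, 0; 2, 1, 2], !![1, 0, 1; 2, 2, 1; 0, 1, 0]]],
     ![![1, !![1, 1, 1; 2, 1, 0; 1, 1, 0], !![1, 1, 1; 1, 0, 0; 2, 1, 0]],
      ![1, !![0, 0, 1; 2, 1, 0; 2, 0, 2], !![0, 0, 1; 2, 1, 0; 2, 0, 2]],
      ![1, !![1, 0, 1; 2, 2, 1; 0, 1, 0], !![0, 0, 1; 2, 2, 0; 2, 1, 2]]],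
     ![![1, !![1, 1, 1; 2, 1, 0; 1, 1, 0], !![1, 0, 1; 2, 0, 0; 0, 2, 2]],
      ![1, !![1, 0, 1; 1, 2, 2; 2, 2, 2], !![1, 1, 1; 1, 0, 1; 2, 1, 1]],
      ![1, !![0, 0, 1; 1, 2, 2; 2, 2, 2], !![0, 0, 1; 1, 2, 2; 2, 2, 2]]]]]

/-- witness table -/
def tbVi : Fin 3 → Fin 3 → Fin 3 → Fin 3 → Matrix (Fin 3) (Fin 3) (ZMod 3) :=
  ![![![![1, !![0, 0, 2; 0, 1, 2; 1, 2, 2], !![0, 2, 0; 2, 1, 2; 1, 1, 0]],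
      ![1, !![0, 0, 1; 2, 2, 2; 1, 0, 2], !![2, 2, 2; 2, 0, 2; 1, 0, 0]],
      ![1, !![0, 0, 1; 2, 2, 1; 1, 0, 0], !![1, 2, 1; 2, 0, 2; 1, 0, 0]]],
     ![![1, !![0, 0, 2; 0, 1, 2; 1, 2, 2], !![0, 2, 0; 2, 0, 2; 1, 0, 0]],
      ![1, !![2, 1, 1; 1, 2, 0; 1, 0, 2], !![2, 1, 1; 1, 2, 0; 1, 0, 2]],
      ![1, !![1, 2, 1; 2, 0, 2; 1, 0, 0], !![0, 0, 1; 2, 2, 1; 1, 0, 0]]],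
     ![![1, !![0, 0, 2; 0, 1, 2; 1, 2, 2], !![0, 1, 0; 0, 2, 1; 1, 0, 2]],
      ![1, !![2, 2, 2; 2, 0, 2; 1, 0, 0], !![0, 0, 1; 2, 2, 2; 1, 0, 2]],
      ![1, !![2, 2, 1; 0, 1, 1; 2, 1, 2], !![2, 2, 1; 0, 1, 1; 2, 1, 2]]]],
    ![![![1, !![0, 2, 2; 0, 0, 2; 1, 1, 2], !![0, 1, 0; 0, 0, 1; 1, 2, 2]],
      ![1, !![2, 1, 2; 2, 2, 2; 1, 0, 0], !![2, 2, 1; 1, 2, 0; 1, 2, 2]],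
      ![1, !![2, 0, 1; 0, 2, 1; 2, 0, 2], !![0, 1, 1; 2, 0, 1; 1, 0, 0]]],
     ![![1, !![0, 2, 2; 0, 0, 2; 1, 1, 2], !![0, 2, 0; 2, 0, 2; 1, 1, 0]],
      ![1, !![0, 1, 1; 2, 1, 2; 1, 2, 2], !![0, 1, 1; 2, 1, 2; 1, 2, 2]],
      ![1, !![0, 1, 1; 2, 0, 1; 1, 0, 0], !![2, 0, 1; 0, 2, 1; 2, 0, 2]]],
     ![![1, !![0, 2, 2; 0, 0, 2; 1, 1, 2], !![0, 2, 0; 2, 2, 2; 1, 0, 0]],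
      ![1, !![2, 2, 1; 1, 2, 0; 1, 2, 2], !![2, 1, 2; 2, 2, 2; 1, 0, 0]],
      ![1, !![1, 0, 1; 2, 2, 2; 1, 0, 0], !![1, 0, 1; 2, 2, 2; 1, 0, 0]]]],
    ![![![1, !![0, 1, 2; 0, 2, 2; 1, 0, 2], !![0, 2, 0; 2, 1, 2; 1, 0, 0]],
      ![1, !![2, 0, 1; 1, 2, 0; 1, 1, 2], !![0, 2, 1; 2, 0, 2; 1, 1, 2]],
      ![1, !![1, 1, 1; 2, 1, 2; 1, 0, 0], !![2, 1, 1; 0, 0, 1; 2, 2, 2]]],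
     ![![1, !![0, 1, 2; 0, 2, 2; 1, 0, 2], !![0, 1, 0; 0, 1, 1; 1, 1, 2]],
      ![1, !![2, 0, 2; 2, 1, 2; 1, 0, 0], !![2, 0, 2; 2, 1, 2; 1, 0, 0]],
      ![1, !![2, 1, 1; 0, 0, 1; 2, 2, 2], !![1, 1, 1; 2, 1, 2; 1, 0, 0]]],
     ![![1, !![0, 1, 2; 0, 2, 2; 1, 0, 2], !![0, 2, 0; 2, 2, 2; 1, 1, 0]],
      ![1, !![0, 2, 1; 2, 0, 2; 1, 1, 2], !![2, 0, 1; 1, 2, 0; 1, 1, 2]],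
      ![1, !![0, 2, 1; 2, 1, 1; 1, 0, 0], !![0, 2, 1; 2, 1, 1; 1, 0, 0]]]]]


set_option maxRecDepth 100000 in
theorem tb_spec : ∀ a2 a3 g1 g3 : ZMod 3, g3 ≠ 0 →
    tbU a2 a3 g1 g3 * tbUi a2 a3 g1 g3 = 1 ∧ tbV a2 a3 g1 g3 * tbVi a2 a3 g1 g3 = 1 ∧
    (!![0, (g1 * a3 - 1) * g3, g1; 1, a2, 1; 0, a3, g3] : Matrix (Fin 3) (Fin 3) (ZMod 3)) =
      tbU a2 a3 g1 g3 * !![1, 0, 0; 0, 0, -1; 0, 1, 0] * tbUi a2 a3 g1 g3 *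
        (tbV a2 a3 g1 g3 * !![1, 0, 0; 0, 0, -1; 0, 1, 0] * tbVi a2 a3 g1 g3) := by
  decide +kernel

theorem Good.map {K L : Type*} [Field K] [Field L] (φ : K →+* L) {X A : Matrix (Fin 3) (Fin 3) K}
    (h : Good X A) : Good (X.map φ) (A.map φ) := by
  obtain ⟨U, Ui, V, Vi, hU, hV, rfl⟩ := h
  refine ⟨U.map φ, Ui.map φ, V.map φ, Vi.map φ, ?_, ?_, ?_⟩
  · rw [← Matrix.map_mul, hU, Matrix.map_one _ (map_zero φ) (map_one φ)]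
  · rw [← Matrix.map_mul, hV, Matrix.map_one _ (map_zero φ) (map_one φ)]
  · simp only [Matrix.map_mul]

theorem good_X4 {F : Type*} [Field F] [Fintype F] [CharP F 3] (hF : Fintype.card F = 3)
    (a2 a3 g1 : F) {g3 : F} (hg : g3 ≠ 0) : Good (X4 F) (App a2 a3 g1 g3) := by
  let φ : ZMod 3 →+* F := ZMod.castHom (dvd_refl 3) F
  have hφ : Function.Bijective φ :=
    (Fintype.bijective_iff_injective_and_card φ).2 ⟨φ.injective, by rw [ZMod.card, hF]⟩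
  obtain ⟨b2, rfl⟩ := hφ.2 a2
  obtain ⟨b3, rfl⟩ := hφ.2 a3
  obtain ⟨c1, rfl⟩ := hφ.2 g1
  obtain ⟨c3, rfl⟩ := hφ.2 g3
  have hc : c3 ≠ 0 := by
    rintro rfl
    exact hg (map_zero φ)
  have hcc : c3 * c3 = 1 := by
    have : ∀ c : ZMod 3, c ≠ 0 → c * c = 1 := by decide
    exact this c3 hc
  obtain ⟨h1, h2, h3⟩ := tb_spec b2 b3 c1 c3 hc
  have hG : Good (!![1, 0, 0; 0, 0, -1; 0, 1, 0] : Matrix (Fin 3) (Fin 3) (ZMod 3))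
      !![0, (c1 * b3 - 1) * c3, c1; 1, b2, 1; 0, b3, c3] := ⟨_, _, _, _, h1, h2, h3⟩
  have hG' := hG.map φ
  have e1 : (!![1, 0, 0; 0, 0, -1; 0, 1, 0] : Matrix (Fin 3) (Fin 3) (ZMod 3)).map φ = X4 F := by
    ext i j
    fin_cases i <;> fin_cases j <;> simp [X4]
  have e2 : (!![0, (c1 * b3 - 1) * c3, c1; 1, b2, 1; 0, b3, c3] :
      Matrix (Fin 3) (Fin 3) (ZMod 3)).map φ = App (φ b2) (φ b3) (φ c1) (φ c3) := by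
    have hcc' : φ c3 * φ c3 = 1 := by rw [← map_mul, hcc, map_one]
    ext i j
    fin_cases i <;> fin_cases j <;> simp [App]
    rw [eq_div_iff hg]
    linear_combination (φ c1 * φ b3 - 1) * hcc'
  rwa [e1, e2] at hG'

end Cfsg.Agent.Lib.Helper37.P3
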