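import Cfsg.Agent.Lib.Helper37.PSL3.P3D

/-!
# Products of two conjugates in `PSL₃(q)`
-/

set_option autoImplicit false

namespace Cfsg.Agent.Lib.Helper37.P3

open Matrix

variable {F : Type*} [Field F]

theorem psl_of_good (X : SpecialLinearGroup (Fin 3) F) (hX : ∀ c : F, dg c * X.1 = X.1 * dg c)
    (h : ∀ a2 a3 g1 g3 : F, g3 ≠ 0 → Good X.1 (App a2 a3 g1 g3))
    (g : ProjectiveSpecialLinearGroup (Fin 3) F) (hg : g ≠ 1) :
    ∃ u v : ProjectiveSpecialLinearGroup (Fin 3) F,
      g = (u * (QuotientGroup.mk X) * u⁻¹) * (v * (QuotientGroup.mk X) * v⁻¹) := by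
  obtain ⟨A, rfl⟩ := QuotientGroup.mk_surjective g
  have hA : A ∉ Subgroup.center (SpecialLinearGroup (Fin 3) F) := by
    intro hA
    exact hg ((QuotientGroup.eq_one_iff A).2 hA)
  have hns : ¬ ∃ c : F, A.1 = c • (1 : Matrix (Fin 3) (Fin 3) F) := by
    rintro ⟨c, hc⟩
    apply hA
    rw [Matrix.SpecialLinearGroup.mem_center_iff]
    refine ⟨c, ?_, ?_⟩
    · have := A.2
      rw [hc, Matrix.det_smul, Matrix.det_one, mul_one] at this
      exact this
    · show _ = A.1
      rw [hc]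
      ext i j
      simp [Matrix.scalar_apply, Matrix.diagonal_apply, Matrix.one_apply]
  obtain ⟨U, V, hUV⟩ := (Good.of_App h A.2 hns).toSL hX
  refine ⟨QuotientGroup.mk U, QuotientGroup.mk V, ?_⟩
  rw [hUV]
  rfl

/-- `diag(a,1,a⁻¹)` in `SL₃` -/
def DS (a : F) (ha : a ≠ 0) : SpecialLinearGroup (Fin 3) F :=
  ⟨Dm a, by simp [Dm, Matrix.det_fin_three, ha]⟩

theorem DS_pow (a : F) (ha : a ≠ 0) (n : ℕ) : (DS a ha) ^ n = DS (a ^ n) (pow_ne_zero n ha) := by
  induction n with
  | zero =>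
    rw [pow_zero]
    apply Subtype.ext
    show (1 : Matrix (Fin 3) (Fin 3) F) = Dm (a ^ 0)
    ext i j
    fin_cases i <;> fin_cases j <;> simp [Dm]
  | succ n ih =>
    rw [pow_succ, ih]
    apply Subtype.ext
    show Dm (a ^ n) * Dm a = Dm (a ^ (n + 1))
    ext i j
    fin_cases i <;> fin_cases j <;>
      simp [Dm, Matrix.mul_apply, Fin.sum_univ_three, pow_succ, mul_comm]

theorem DS_comm (a : F) (ha : a ≠ 0) (c : F) : dg c * (DS a ha).1 = (DS a ha).1 * dg c := by
  ext i j
  fin_cases i <;> fin_cases j <;> simp [DS, Dm, dg, Matrix.mul_apply, Fin.sum_univ_three, mul_comm]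

/-- the element of order four in `SL₃` -/
def X4S (F : Type*) [Field F] : SpecialLinearGroup (Fin 3) F :=
  ⟨X4 F, by simp [X4, Matrix.det_fin_three]⟩

theorem X4S_pow : (X4S F) ^ 4 = 1 := by
  apply Subtype.ext
  show (X4 F) ^ 4 = 1
  have h2 : (X4 F) ^ 2 = !![1, 0, 0; 0, -1, 0; 0, 0, -1] := by
    rw [pow_two]
    ext i j
    fin_cases i <;> fin_cases j <;> simp [X4, Matrix.mul_apply, Fin.sum_univ_three]
  have : (X4 F) ^ 4 = (X4 F) ^ 2 * (X4 F) ^ 2 := by rw [← pow_add]
  rw [this, h2]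
  ext i j
  fin_cases i <;> fin_cases j <;> simp [Matrix.mul_apply, Fin.sum_univ_three]

theorem X4S_comm (c : F) : dg c * (X4S F).1 = (X4S F).1 * dg c := by
  ext i j
  fin_cases i <;> fin_cases j <;> simp [X4S, X4, dg, Matrix.mul_apply, Fin.sum_univ_three]

theorem main {F : Type*} [Field F] [Fintype F] (p : ℕ) [Fact p.Prime] [CharP F p]
    (h3 : 3 ≤ Fintype.card F) :
    ∃ x : Matrix.ProjectiveSpecialLinearGroup (Fin 3) F, ¬ p ∣ orderOf x ∧
      ∀ g : Matrix.ProjectiveSpecialLinearGroup (Fin 3) F, g ≠ 1 →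
        ∃ u v : Matrix.ProjectiveSpecialLinearGroup (Fin 3) F,
          g = (u * x * u⁻¹) * (v * x * v⁻¹) := by
  classical
  obtain ⟨n, hp, hcard⟩ := FiniteField.card F p
  rcases h3.eq_or_lt with h | h
  · -- q = 3
    have hp3 : p = 3 := by
      have : p ∣ 3 := by
        rw [h, hcard]
        exact dvd_pow_self p n.ne_zero
      exact (Nat.prime_dvd_prime_iff_eq hp Nat.prime_three).1 this
    subst hp3
    refine ⟨QuotientGroup.mk (X4S F), ?_, ?_⟩
    · intro hd
      have h4 : (QuotientGroup.mk (X4S F) : ProjectiveSpecialLinearGroup (Fin 3) F) ^ 4 = 1 := by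
        rw [← QuotientGroup.mk_pow, X4S_pow]
        rfl
      have := hd.trans (orderOf_dvd_of_pow_eq_one h4)
      omega
    · exact psl_of_good _ X4S_comm (fun a2 a3 g1 g3 hg => good_X4 h.symm a2 a3 g1 hg)
  · -- q ≥ 4
    obtain ⟨a, ha⟩ : ∃ a : F, a ∉ ({0, 1, -1} : Finset F) := by
      by_contra hcon
      push Not at hcon
      have : Fintype.card F ≤ ({0, 1, -1} : Finset F).card := by
        rw [← Finset.card_univ]
        exact Finset.card_le_card (fun x _ => hcon x)
      have h' : ({0, 1, -1} : Finset F).card ≤ 3 := Finset.card_le_three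
      omega
    simp only [Finset.mem_insert, Finset.mem_singleton, not_or] at ha
    obtain ⟨ha0, ha1, ha2⟩ := ha
    refine ⟨QuotientGroup.mk (DS a ha0), ?_, ?_⟩
    · intro hd
      have h4 : (QuotientGroup.mk (DS a ha0) : ProjectiveSpecialLinearGroup (Fin 3) F) ^
          (Fintype.card F - 1) = 1 := by
        rw [← QuotientGroup.mk_pow, DS_pow]
        have : DS (a ^ (Fintype.card F - 1)) (pow_ne_zero _ ha0) = 1 := by
          apply Subtype.ext
          ext i j
          fin_cases i <;> fin_cases j <;> simp [DS, Dm, FiniteField.pow_card_sub_one_eq_one a ha0]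
        rw [this]
        rfl
      have h5 := hd.trans (orderOf_dvd_of_pow_eq_one h4)
      have h6 : p ∣ Fintype.card F := by
        rw [hcard]
        exact dvd_pow_self p n.ne_zero
      have h7 : p ∣ 1 := by
        have := (Nat.dvd_sub h6 h5)
        rwa [Nat.sub_sub_self (by omega)] at this
      exact hp.one_lt.ne' (Nat.dvd_one.1 h7)
    · exact psl_of_good _ (DS_comm a ha0) (fun a2 a3 g1 g3 hg => good_App ha0 ha1 ha2 a2 a3 g1 hg)

end Cfsg.Agent.Lib.Helper37.P3
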